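import Cfsg.Agent.DG6.U1
import Cfsg.Agent.S4504
import Cfsg.Agent.H12.Lin
import Cfsg.Agent.H26.Suzuki

/-! Simple groups of order 6048: two-rank and centralizers of involutions -/

set_option autoImplicit false

namespace Cfsg.Agent.G22

open Cfsg Cfsg.Agent.H4 Cfsg.Agent.H5 Cfsg.Agent.H6 Cfsg.Agent.H19 Subgroup Finset MatrixGroups

variable {G : Type*} [Group G]

theorem chd [Fintype G] [IsSimpleGroup G] (hG : Nat.card G = 6048) : ∃ (χ : IrrCharacter G) (X : G → ℤ),
    charDegree (χ : G → ℂ) = 6 ∧ (∀ g, (χ : G → ℂ) g = X g) ∧ ∀ t, orderOf t = 2 → X t = -2 ∧ ¬ 7 ∣ cc t ∧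
      ∀ y, orderOf y ∣ 27 → y ≠ 1 → ((cc t * cc y : ℕ) : ℤ) ∣ 2016 * (3 + X y) := by
  classical
  have hc : ¬ IsMulCommutative G := not_comm_of_card_not_prime (by rw [hG]; norm_num)
  haveI : Fact (Nat.Prime 7) := ⟨by norm_num⟩
  obtain ⟨x, K, h, B, L, h1, h2, h3⟩ := d1_mem (p := 7) hc (by rw [hG]; norm_num) (by rw [hG]; norm_num)
  rw [hG, show d1list 6048 7 = [(1, 3, 288, [8, -27]), (1, 3, 288, [-6, -27]), (1, 3, 288, [-6, 8])] by
    decide +kernel] at h1
  have hh : Nat.card K = 1 ∧ eN h.ord = 3 ∧ (L = [8, -27] ∨ L = [-6, -27] ∨ L = [-6, 8]) := by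
    simp only [List.mem_cons, Prod.mk.injEq, List.not_mem_nil, or_false] at h1
    tauto
  obtain ⟨hK, he, hL⟩ := hh
  obtain rfl := eq_bot_of_card_eq _ hK
  obtain ⟨l, h4, h5⟩ := exists_list_of_map_eq _ _ _ h3
  obtain ⟨χ, φ, rfl⟩ := List.length_eq_two.1 (by
    rcases hL with rfl | rfl | rfl <;> simpa using congrArg List.length h5 : l.length = 2)
  have mem : ∀ ψ, ψ ∈ B.X.erase (irrOne G) ↔ ψ = χ ∨ ψ = φ := fun ψ => by
    rw [← Finset.mem_val, ← h4]; simp
  obtain ⟨nχ, mχ⟩ := Finset.mem_erase.1 ((mem χ).2 (.inl rfl))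
  obtain ⟨nφ, mφ⟩ := Finset.mem_erase.1 ((mem φ).2 (.inr rfl))
  have sm : ∀ F : IrrCharacter G → ℂ, ∑ ψ ∈ B.X, B.a ψ * F ψ = F (irrOne G) + B.a χ * F χ + B.a φ * F φ :=
    fun F => by
      rw [← Finset.add_sum_erase _ _ B.one_mem, Finset.sum_eq_multiset_sum, ← h4, B.a_one]
      simp; ring
  have z0 : ∀ t, orderOf t = 2 → Nat.card {q : G × G // IsConj t q.1 ∧ IsConj t q.2 ∧ q.1 * q.2 = x} = 0 :=
    fun t ht => by
    have t2 : t * t = 1 := by rw [← sq, ← ht, pow_orderOf_eq_one]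
    by_contra hne
    obtain ⟨-, a, ha, -, hi⟩ := h.card_pairs (by norm_num) t2 t2 hne
    have := (normalizer (zpowers x : Set G)).orderOf_dvd_natCard (x := a) (mem_normalizer_fintype (by
      rintro _ ⟨k, rfl⟩
      simp only [SetLike.mem_coe]
      rw [← conj_zpow, hi]; exact zpow_mem (inv_mem (mem_zpowers x)) k))
    rw [← orderOf_isConj ha, ht, h.card_N, card_bot, show Nat.card (EE h.ord) = 3 from he] at this
    omega
  have pr := fun (u v : G) (hu : ¬ 7 ∣ orderOf u) (hv : ¬ 7 ∣ orderOf v) => B.card_pairs_eq hu hv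
  have rel := fun (u : G) (hu : ¬ 7 ∣ orderOf u) => B.rel 1 u hu
  simp only [sm fun ψ => (ψ : G → ℂ) _ * (ψ : G → ℂ) _ / (ψ : G → ℂ) 1, irrOne_apply,
    ← χ.2.isCharacter.charDegree_cast, ← φ.2.isCharacter.charDegree_cast, hG] at pr
  simp only [sm fun ψ => (ψ : G → ℂ) _, irrOne_apply] at rel
  rcases hL with rfl | rfl | rfl <;>
    simp only [List.map_cons, List.map_nil, List.cons.injEq, and_true] at h5
  · have hz : B.ε = -1 ∧ B.z = 18 := by
      rcases B.hε with f | f <;> rw [f] at h2 <;> simp at h2 <;> omega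
    have aχ : B.a χ = 1 ∧ charDegree (χ : G → ℂ) = 8 := by
      rcases B.ha χ mχ with f | f <;> rw [f] at h5 <;> omega
    have aφ : B.a φ = -1 ∧ charDegree (φ : G → ℂ) = 27 := by
      rcases B.ha φ mφ with f | f <;> rw [f] at h5 <;> omega
    obtain ⟨t, ht, -⟩ := exists_central_invol (G := G) (a := 1) (by norm_num) (by rw [hG]; norm_num)
    obtain ⟨k, k0, k1, k2⟩ := invol_val hc nχ ht
    obtain ⟨l, l0, l1, l2⟩ := invol_val hc nφ ht
    have e := pr t t (by omega) (by omega)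
    have r := rel t (by omega)
    rw [aχ.2] at k1 k2
    rw [aφ.2] at l1 l2
    rw [z0 t ht, hz.1, hz.2, aχ.1, aφ.1, aχ.2, aφ.2, k2, l2] at e
    rw [hz.1, aχ.1, aφ.1, k2, l2] at r
    have e2 : (216 + 27 * (8 - 4 * k) ^ 2 - 8 * (27 - 4 * l) ^ 2 + 12 * (18 + 4 * k - 4 * l) ^ 2 : ℂ) = 0 := by
      rw [show (B.μ 1 : G → ℂ) t = 18 + 4 * k - 4 * l by push_cast at r; linear_combination -r] at e
      push_cast at e
      linear_combination (-216 / 6048 : ℂ) * e
    have e3 : (216 + 27 * (8 - 4 * k) ^ 2 - 8 * (27 - 4 * l) ^ 2 + 12 * (18 + 4 * k - 4 * l) ^ 2 : ℤ) = 0 := by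
      exact_mod_cast e2
    have : k ≤ 3 := by omega
    have : l ≤ 13 := by omega
    interval_cases k <;> interval_cases l <;> simp at e3
  · have hz : B.ε = -1 ∧ B.z = 32 := by
      rcases B.hε with f | f <;> rw [f] at h2 <;> simp at h2 <;> omega
    have aχ : B.a χ = -1 ∧ charDegree (χ : G → ℂ) = 6 := by
      rcases B.ha χ mχ with f | f <;> rw [f] at h5 <;> omega
    have aφ : B.a φ = -1 ∧ charDegree (φ : G → ℂ) = 27 := by
      rcases B.ha φ mφ with f | f <;> rw [f] at h5 <;> omega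
    have : ∀ g, ∃ n : ℤ, (χ : G → ℂ) g = n := fun g => int_of_gal χ.2.isCharacter fun σ => by
      obtain ⟨θ, h6, h7⟩ := exists_gal χ σ
      have : θ = χ ∨ θ = φ := by
        rw [← mem, Finset.mem_erase]
        refine ⟨fun f => by rw [f, charDegree_irrOne] at h6; omega, ?_⟩
        by_contra h8
        have := B.fd_other h8 fun q f => by rw [← f, B.deg_μ, hz.2] at h6; omega
        omega
      rw [← h7, this.resolve_right fun f => by rw [f] at h6; omega]
    choose X hX using this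
    refine ⟨χ, X, aχ.2, hX, fun t ht => ?_⟩
    have μ0 : (B.μ 1 : G → ℂ) t = 0 :=
      apply_eq_zero_of_defect_zero Nat.prime_two (B.μ 1).2
        (fact_le (k := 5) Nat.prime_two (by rw [hG]; norm_num) (by rw [B.deg_μ, hz.2]; norm_num)
          (by rw [B.deg_μ, hz.2]; norm_num)) (by omega)
    have ht2 : X t = -2 := by
      obtain ⟨k, k0, k1, k2⟩ := invol_val hc nχ ht
      have e := pr t t (by omega) (by omega)
      have r := rel t (by omega)
      rw [z0 t ht, μ0, aχ.1, aφ.1, aχ.2, aφ.2] at e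
      rw [μ0, aχ.1, aφ.1] at r
      rw [show (φ : G → ℂ) t = 1 - (χ : G → ℂ) t by push_cast at r; linear_combination r, hX] at e
      have e2 : ((X t + 2) * (11 * X t - 26) : ℂ) = 0 := by
        push_cast at e
        linear_combination (54 / 6048 : ℂ) * e
      have e3 : (X t + 2) * (11 * X t - 26) = 0 := by exact_mod_cast e2
      rcases mul_eq_zero.1 e3 with f | f <;> omega
    refine ⟨ht2, fun h7 => ?_, fun y hy y1 => ?_⟩
    · obtain ⟨u, hu, h8⟩ := exists_of_dvd_cc (by norm_num) h7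
      have := orderOf_dvd_cc h8.symm
      rw [(h.cc_eq (hu ▸ dvd_rfl)).2, ht] at this
      omega
    · have y2 : orderOf y ≠ 1 := by simpa using y1
      have y3 := Nat.le_of_dvd (by norm_num) hy
      have e := pr t y (by omega) fun f => absurd (f.trans hy) (by norm_num)
      rw [μ0, aχ.1, aφ.1, aχ.2, aφ.2, hX, hX, ht2, apply_eq_zero_of_defect_zero (g := y) Nat.prime_three φ.2
        (fact_le (k := 3) Nat.prime_three (by rw [hG]; norm_num) (by rw [aφ.2]; norm_num)
          (by rw [aφ.2]; norm_num)) (by interval_cases orderOf y <;> omega)] at e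
      refine ⟨Nat.card {q : G × G // IsConj t q.1 ∧ IsConj y q.2 ∧ q.1 * q.2 = x}, ?_⟩
      have : (2016 * (3 + X y) : ℂ) = (cc t * cc y : ℕ) *
          Nat.card {q : G × G // IsConj t q.1 ∧ IsConj y q.2 ∧ q.1 * q.2 = x} := by
        push_cast at e ⊢
        linear_combination -e
      exact_mod_cast this
  · have hz : B.z = 3 := by
      rcases B.hε with f | f <;> rw [f] at h2 <;> simp at h2 <;> omega
    have hk := (B.μ 1).2.charKer_eq_bot_of_simple fun e => by
      have := B.deg_μ 1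
      rw [e, hz] at this
      exact absurd (this.symm.trans charDegree_irrOne) (by norm_num)
    obtain ⟨e⟩ := S4504.result 7 (by norm_num) (by rw [hG]; norm_num) (by rw [hG]; norm_num)
      (fun H hn e => by
        rcases hn.eq_bot_or_eq_top with rfl | rfl
        · simp at e
        · rw [card_top] at e; omega) _ (B.μ 1).2.isCharacter
      (fun g hg => mem_bot.1 (hk ▸ (B.μ 1).2.isCharacter.mem_charKer.2 hg)) (by rw [B.deg_μ, hz])
    have h6 : 2 * Nat.card PSL(2, ZMod 7) = 336 := H12.card_PSL2 (ZMod.card 7)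
    have h7 := Nat.card_congr e.toEquiv
    have h8 := (center G).card_eq_card_quotient_mul_card_subgroup
    rw [h7, center_eq_bot_of_simple hc, card_bot] at h8
    omega

theorem ch6 [Finite G] [IsSimpleGroup G] (hn : Nat.card G = 6048) : Cfsg.PRankLE 2 2 G ∧ ∀ J : G,
    orderOf J = 2 → 96 ∣ Nat.card (centralizer ({J} : Set G)) → Nat.card (centralizer ({J} : Set G)) = 96 := by
  classical
  haveI := Fintype.ofFinite G
  obtain ⟨χ, X, dχ, hX, H⟩ := chd hn
  have X1 : X 1 = 6 := by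
    have h1 := (hX 1).symm.trans χ.2.isCharacter.charDegree_cast.symm
    rw [dχ] at h1; exact_mod_cast h1
  have key : ∀ (S : Subgroup G) (a : ℤ), (∀ g ∈ S, g ≠ 1 → X g ≤ a) → 0 ≤ 6 + a * ((Nat.card S : ℤ) - 1) :=
    fun S a h => by
    obtain ⟨m, -, hm⟩ := exists_sum_fs χ.2.isCharacter S (F := X) fun g _ => hX g
    rw [← add_sum_erase _ _ (mem_fs.2 (one_mem S)), X1] at hm
    have := sum_le_card_nsmul ((fs S).erase 1) X a fun g hg =>
      h g (mem_fs.1 (mem_of_mem_erase hg)) (ne_of_mem_erase hg)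
    rw [card_erase_of_mem (mem_fs.2 (one_mem S)), card_fs, nsmul_eq_mul, Nat.cast_pred Nat.card_pos] at this
    have : (0 : ℤ) ≤ Nat.card S * m := by positivity
    linarith
  refine ⟨fun A _ hA => ?_, fun J hJ h96 => ?_⟩
  · haveI := Fact.mk Nat.prime_two
    have := key A (-2) fun g hg g1 => (H g (orderOf_eq_prime (hA g hg) g1)).1.le
    omega
  obtain ⟨-, h7, h⟩ := H J hJ
  by_contra hne
  have h288 : 288 ∣ cc J := (by decide +kernel : ∀ d ∈ Nat.divisors 63, ¬ 7 ∣ 96 * d → 96 * d ≠ 96 → 288 ∣ 96 * d)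
    |> fun f => by
      obtain ⟨d, e⟩ := h96
      have := hn ▸ cc_dvd J
      rw [cc, e] at h7 this ⊢
      exact f d (Nat.mem_divisors.2 ⟨Nat.dvd_of_mul_dvd_mul_left (by norm_num : 0 < 96) this, by norm_num⟩) h7
        (e ▸ hne)
  haveI := Fact.mk Nat.prime_three
  obtain ⟨P, hP⟩ := Sylow.exists_subgroup_card_pow_prime (G := G) 3 (n := 3) (by rw [hn]; norm_num)
  have hp := IsPGroup.of_card hP
  have hk := χ.2.charKer_eq_bot_of_simple fun e => by
    rw [e] at dχ; exact absurd (dχ.symm.trans charDegree_irrOne) (by norm_num)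
  have := key P (-3) fun y hy y1 => by
    have h9 : 9 ∣ cc y := by
      have a := H26.sq_le_card_cent hp (by rw [hP]; norm_num) ⟨y, hy⟩
      obtain ⟨n, b⟩ := (hp.to_subgroup (centralizer ({⟨y, hy⟩} : Set P))).exists_card_eq
      refine Dvd.dvd.trans ?_ (dvd_cc (U := (centralizer ({⟨y, hy⟩} : Set P)).map P.subtype) ?_)
      · rw [card_map_of_injective (subtype_injective _), b]
        exact pow_dvd_pow 3 ((Nat.pow_le_pow_iff_right (by norm_num)).1 (b ▸ a))
      · rintro _ ⟨u, hu, rfl⟩; exact congrArg Subtype.val (mem_centralizer_singleton_iff.1 hu)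
    have h1 := (Int.natCast_dvd_natCast.2 (Nat.mul_dvd_mul h288 h9)).trans
      (h y ((P.orderOf_dvd_natCard hy).trans hP.dvd) y1)
    have h2 := χ.2.isCharacter.norm_le y
    rw [hX, hX, X1, Complex.norm_intCast, Complex.norm_intCast] at h2
    have h3 : |X y| ≤ |(6 : ℤ)| := by exact_mod_cast h2
    have h4 : X y ≠ 6 := fun e => y1 (mem_bot.1 (hk ▸ χ.2.isCharacter.mem_charKer.2 (by rw [hX, hX, e, X1])))
    have := le_abs_self (X y)
    norm_num at h1 h3
    omega
  rw [hP] at this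
  norm_num at this

end Cfsg.Agent.G22
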